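import Cfsg.Agent.Lib.OC.StepV
import Cfsg.Agent.Lib.NF.AM

/-!
# Odd cosets: the amalgam step
-/

set_option autoImplicit false
set_option linter.unusedSectionVars false

namespace Cfsg.Lib.OC

open Subgroup Cfsg.Lib.BG Cfsg.Lib.Transfer Cfsg.Lib.Loc Cfsg.Lib.PLocal Cfsg.Lib.FH Cfsg.Lib.FQ Cfsg.Lib.S4F
open Cfsg.Lib.NF (refl Dh exists_dh Q2 red_ncl am_q2_map am_quo_eq am_syl am_frat)
open scoped commutatorElement

variable {X : Type*} [Group X] [Finite X] {A G H Q R S U W : Subgroup X} {g : X}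

/-- A Sylow subgroup modulo `Q` that is normalized by the 2-group `S`. -/
theorem syl_mod (p : ℕ) [Fact p.Prime] (hS : IsPGroup 2 S) (qR : Nml Q R) (sQ : S ≤ 𝐍(Q)) (sR : S ≤ 𝐍(R))
    (o : PiGrp {2}ᶜ (quo R Q)) : ∃ P, Syl p P R ∧ S ≤ 𝐍(Q ⊔ P) := by
  haveI := Fact.mk Nat.prime_two
  obtain ⟨P', hP', nP⟩ := Syl.exists_inv p (A := quo S Q) (K := quo R Q) (quo_norm sR Q)
    (o.coprime_pgroup (pgroup_quo hS Q)).symm (.inl (pgroup_sol (pgroup_quo hS Q)))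
  obtain ⟨P, hP⟩ := Syl.exists (p := p) (copre Q P')
  have l : copre Q P' ≤ R := copre_le_of_le_quo qR hP'.le
  have e : quo P Q = P' := by
    have := hP.quo (N := Q) (copre_le_norm P')
    rw [quo_copre] at this
    exact Syl.eq_of_le_pgroup this this.le le_rfl hP'.pgroup
  have e' : Q ⊔ P = copre Q P' := by rw [← e, copre_quo (hP.le.trans (copre_le_norm P'))]
  refine ⟨P, hP.trans_idx l (PiNat.p'_iff.2 ?_), e' ▸ norm_copre sQ nP⟩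
  rw [← relIndex_quo (Nml.copre_self P') qR.norm l, quo_copre]
  exact hP'.not_dvd'

/-- A Sylow subgroup of `R` that does not normalize `W` and is invariant modulo `Q`. -/
def Pk (_H A S W Q R : Subgroup X) : Prop := ¬ R ≤ 𝐍(W) →
  ∃ p : ℕ, ∃ _ : Fact p.Prime, ∃ P, Syl p P R ∧ A ≤ 𝐍(Q ⊔ P) ∧ S ≤ 𝐍(Q ⊔ P) ∧ ¬ P ≤ 𝐍(W)

/-- Move the generator twice by the Frattini argument: in `R` for `P`, then in `H ⊓ 𝐍(Q ⊔ P)` for `S`. -/
theorem Am.pick (h : Am H A S W) :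
    ∃ A', Am H A' S W ∧ Pk H A' S W 𝐎({2}, H) (copre 𝐎({2}, H) 𝐎({2}ᶜ, quo H 𝐎({2}, H))) := by
  haveI := Fact.mk Nat.prime_two
  have qH := pcore_nml {2} H
  have aQ := norm_pcore h.fp.norm {2}
  generalize 𝐎({2}, H) = Q at qH aQ ⊢
  have rH := qH.copre (pcore_nml {2}ᶜ (quo H Q))
  have aR := norm_copre aQ (norm_pcore (quo_norm h.fp.norm Q) {2}ᶜ)
  have qR : Q ≤ copre Q 𝐎({2}ᶜ, quo H Q) := le_copre _
  have oR : PiGrp {2}ᶜ (quo (copre Q 𝐎({2}ᶜ, quo H Q)) Q) := by rw [quo_copre]; exact pcore_pi _ _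
  generalize copre Q 𝐎({2}ᶜ, quo H Q) = R at rH aR qR oR ⊢
  by_cases r2 : R ≤ 𝐍(W)
  · exact ⟨A, h, fun e => absurd r2 e⟩
  have sH := h.syl.le
  obtain ⟨p, hp, P, hP, s3, nP⟩ : ∃ p : ℕ, ∃ _ : Fact p.Prime, ∃ P, Syl p P R ∧ S ≤ 𝐍(Q ⊔ P) ∧ ¬ P ≤ 𝐍(W) := by
    by_contra! e
    refine r2 (Syl.le_of_forall fun q hq _ => ?_)
    have := Fact.mk hq
    obtain ⟨P, a, c⟩ := syl_mod q h.syl.pgroup ⟨qR, rH.le.trans qH.norm⟩ (sH.trans qH.norm) (sH.trans rH.norm) oR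
    exact ⟨P, a, e q this P a c⟩
  obtain ⟨A₁, h₁, a1, l1, -⟩ := h.fp.frat rH.le aR hP
  have n1 : A₁ ≤ 𝐍(Q ⊔ P) := norm_sup (l1.trans (sup_le (rH.le.trans qH.norm) aQ)) a1
  obtain ⟨A₂, h₂, a2, l2, -⟩ := h₁.frat (inf_le_left : H ⊓ 𝐍(Q ⊔ P) ≤ H) (norm_inf h₁.norm (norm_norm n1))
    (h.syl.of_le (le_inf sH s3) inf_le_left)
  refine ⟨A₂, ⟨h₂, h.sol, h.syl, a2, h.ch, h.el, h.le, h.sW, fun y hy => ?_, h.mx, h.nJ, h.q2⟩,
    fun _ => ⟨p, hp, P, hP, l2.trans (sup_le inf_le_right n1), s3, nP⟩⟩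
  obtain ⟨x, hx, a, ha, rfl⟩ := (mem_sup_left_norm h.fp.norm).1
    ((l2.trans (sup_le (inf_le_left.trans le_sup_left) (l1.trans (sup_le_sup_right rH.le A)))) hy)
  exact mul_mem (h.nJ ⟨hx, normalizer_le_normalizer_thompsonSubgroupOf S
    ((mul_mem_cancel_right (h.aS ha)).1 (a2 hy))⟩) (h.aW ha)

/-- Put `Q = 𝐎({2}, H)`, `R` the preimage of `𝐎({2}ᶜ, H / Q)`, `M = H ⊓ 𝐍(W)`, and suppose `¬ H ≤ M`.
(1) `¬ 𝐉 S ≤ Q`, else `𝐉 S = 𝐉 Q` is normal. An invariant subgroup `T` with `Q ≤ T ≤ S`, `S ≤ 𝐍(T)`, `¬ T ≤ Q` has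
`H ⊓ 𝐍(T) ≤ M` by `ih`.
(2) `¬ R ≤ M`: let `L` be the preimage of `𝐎({2}, H / R)` and `T = S ⊓ L`, `L = R T`, `H = R (H ⊓ 𝐍(T))`; `T ≤ Q` would
give `L = R`, `H = R` (solvable) and `S = Q`.
(3) `pk` gives a Sylow `p`-subgroup `P` of `R`, not in `M`, with `Q ⊔ P` invariant under `S`, `A`; `R = P ⊔ Q`.
(4) `R₀ = R ⊓ M` is normal in `R`: `N = R ⊓ 𝐍(R₀) > R₀` is invariant under `S`, `A`, so `N ⊔ S = H` and `R = N ⊔ Q = N`.
(5) `T = {s ∈ S | ⁅R, s⁆ ≤ R₀}` is `Q`: otherwise `R ≤ ⁅R, T⁆ ⊔ R ⊓ 𝐍(T) ≤ M` by coprime action on `R / Q` and (1).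
Take `B ∈ maxIn 2 S` not in `Q` with `Q.relIndex B` minimal, `exists_dh`, `Sv.false`. -/
theorem Am.step (h : Am H A S W) (ih : ∀ K, S ≤ K → K < H → A ≤ 𝐍(K) → K ≤ 𝐍(W))
    (pk : Pk H A S W 𝐎({2}, H) (copre 𝐎({2}, H) 𝐎({2}ᶜ, quo H 𝐎({2}, H)))) : H ≤ 𝐍(W) := by
  by_contra hn
  have ih' : ∀ K, S ≤ K → K ≤ H → A ≤ 𝐍(K) → ¬ K ≤ 𝐍(W) → K = H := fun K a b c d =>
    by_contra fun e => d (ih K a (lt_of_le_of_ne b e) c)
  obtain ⟨Q, hQ⟩ : ∃ Q, Q = 𝐎({2}, H) := ⟨_, rfl⟩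
  have qH : Nml Q H := hQ ▸ pcore_nml _ _
  have qS : Q ≤ S := hQ ▸ h.syl.pcore_le
  have pQ : IsPGroup 2 Q := pgroup_of_le h.syl.pgroup qS
  have aQ : A ≤ 𝐍(Q) := hQ ▸ norm_pcore h.fp.norm _
  have sH := h.syl.le
  obtain ⟨R, hR⟩ : ∃ R, R = copre Q 𝐎({2}ᶜ, quo H Q) := ⟨_, rfl⟩
  have rH : Nml R H := hR ▸ qH.copre (pcore_nml _ _)
  have qR : Q ≤ R := hR ▸ le_copre _
  have aR : A ≤ 𝐍(R) := hR ▸ norm_copre aQ (norm_pcore (quo_norm h.fp.norm Q) _)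
  have oR : PiGrp {2}ᶜ (quo R Q) := by rw [hR, quo_copre]; exact pcore_pi _ _
  have odd : ¬ 2 ∣ Q.relIndex R := by rw [← card_quo (rH.le.trans qH.norm)]; exact PiGrp.p'_iff.1 oR
  have sR : S ⊓ R = Q := ((Syl.mk' qR pQ odd).eq_of_le_pgroup (le_inf qS qR) inf_le_right
    (pgroup_of_le h.syl.pgroup inf_le_left)).symm
  have j1 : ¬ 𝐉 S ≤ Q := fun e => hn ((le_inf le_rfl (thompsonSubgroupOf_eq_of_le e qS ▸
    qH.norm.trans (normalizer_le_normalizer_thompsonSubgroupOf Q))).trans h.nJ)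
  have t1 : ∀ T ≤ S, S ≤ 𝐍(T) → A ≤ 𝐍(T) → ¬ T ≤ Q → H ⊓ 𝐍(T) ≤ 𝐍(W) := fun T a b c d => by_contra fun e =>
    d (hQ ▸ pcore_max_p (pgroup_of_le h.syl.pgroup a) ⟨a.trans sH, inf_eq_left.1
      (ih' _ (le_inf sH b) inf_le_left (norm_inf h.fp.norm (norm_norm c)) e)⟩)
  have r2 : ¬ R ≤ 𝐍(W) := fun e => by
    have lH : Nml (copre Q (O2 2 (quo H Q))) H := qH.copre (O2_nml _ _)
    have aL : A ≤ 𝐍(copre Q (O2 2 (quo H Q))) := norm_copre aQ (norm_O2 (quo_norm h.fp.norm Q) 2)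
    have t := h.syl.inf_nml lH
    have t' := t.quo (N := Q) (lH.le.trans qH.norm)
    rw [quo_copre] at t'
    have e1 := congrArg (copre Q) (O2_eq_sup t')
    rw [copre_sup, ← hR, copre_quo (inf_le_left.trans (sH.trans qH.norm))] at e1
    by_cases c : S ⊓ copre Q (O2 2 (quo H Q)) ≤ Q
    · have e2 := solvable_p_constrained (sol_quo h.sol Q) t'
      rw [quo_eq_bot c, cent_bot, inf_top_eq, ← le_copre_iff qH.norm, ← e1] at e2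
      exact hn (e2.trans (sup_le e (sup_le (qS.trans h.sW) (inf_le_left.trans h.sW))))
    · refine hn ((Syl.frattini t lH).ge.trans (sup_le (e1.ge.trans ?_) ?_))
      · exact sup_le e (sup_le (qS.trans h.sW) (inf_le_left.trans h.sW))
      · exact t1 _ inf_le_left (norm_inf (le_norm S) (sH.trans lH.norm)) (norm_inf h.aS aL) c
  rw [← hQ, ← hR] at pk
  obtain ⟨p, hp, P, hP, aP, s3, nP⟩ := pk r2
  have pH := hP.le.trans rH.le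
  have md : ∀ N, Q ≤ N → N ≤ R → S ≤ 𝐍(N) → A ≤ 𝐍(N) → ¬ N ≤ 𝐍(W) → N = R := fun N a b c d e => by
    have := modular_left b c
    rw [ih' _ le_sup_right (sup_le (b.trans rH.le) sH) (norm_sup d h.aS) (fun e' => e (le_sup_left.trans e')),
      inf_eq_right.2 rH.le, sR, sup_eq_left.2 a] at this
    exact this.symm
  have r3 : Q ⊔ P = R := md _ le_sup_left (sup_le qR hP.le) s3 aP fun e => nP (le_sup_right.trans e)
  have q0 : Q ≤ R ⊓ 𝐍(W) := le_inf qR (qS.trans h.sW)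
  have s0 : S ≤ 𝐍(R ⊓ 𝐍(W)) := norm_inf (sH.trans rH.norm) (norm_norm h.sW)
  have a0 : A ≤ 𝐍(R ⊓ 𝐍(W)) := norm_inf aR (norm_norm h.aW)
  have r4 : Nml (R ⊓ 𝐍(W)) R := by
    refine ⟨inf_le_left, inf_eq_left.1 (md _ (le_inf qR (le_norm_of_le q0)) inf_le_left
      (norm_inf (sH.trans rH.norm) (norm_norm s0)) (norm_inf aR (norm_norm a0)) fun e => ?_)⟩
    have e1 : R ⊓ 𝐍(W) = Q ⊔ P ⊓ (R ⊓ 𝐍(W)) := by
      rw [← modular_left q0 (pH.trans qH.norm), r3, ← inf_assoc, inf_idem]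
    refine (nil_norm_grow hP.nil (lt_of_le_of_ne (inf_le_left : P ⊓ (R ⊓ 𝐍(W)) ≤ P) fun e' =>
      nP ((inf_eq_left.1 e').trans inf_le_right))).not_ge (le_inf inf_le_left (le_inf (inf_le_left.trans hP.le) ?_))
    refine (le_inf (inf_le_left.trans hP.le) ?_).trans e
    nth_rw 2 [e1]
    exact norm_sup (inf_le_left.trans (pH.trans qH.norm)) inf_le_right
  generalize e0 : R ⊓ 𝐍(W) = R₀ at q0 s0 a0 r4
  have w0 : R₀ ≤ 𝐍(W) := e0 ▸ inf_le_right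
  have t5 : ∀ B ≤ S, ⁅R, B⁆ ≤ R₀ → B ≤ Q := fun B hB e => by_contra fun nB => by
    have k : ∀ Y ≤ S, Y ≤ S ⊓ copre R₀ 𝐂(quo R R₀) ↔ ⁅R, Y⁆ ≤ R₀ := fun Y a => by
      rw [le_inf_iff, and_iff_right a, le_copre_iff (a.trans s0), quo_le_cent_iff (a.trans s0) r4.norm,
        commutator_comm]
    have n := t1 _ inf_le_left
      (norm_inf (le_norm S) (norm_copre s0 (norm_cent (quo_norm (sH.trans rH.norm) R₀))))
      (norm_inf h.aS (norm_copre a0 (norm_cent (quo_norm aR R₀)))) fun e' => nB (((k B hB).2 e).trans e')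
    have c := (k _ inf_le_left).1 le_rfl
    have qT := (k Q qS).2 ((comm_le_right (rH.le.trans qH.norm)).trans q0)
    have tS : S ⊓ copre R₀ 𝐂(quo R R₀) ≤ S := inf_le_left
    generalize S ⊓ copre R₀ 𝐂(quo R R₀) = T at n c qT tS
    have tQ : T ≤ 𝐍(Q) := tS.trans (sH.trans qH.norm)
    have pT := pgroup_quo (pgroup_of_le h.syl.pgroup tS) Q
    have d := congrArg (copre Q) (coprime_cent_prod (quo_norm (tS.trans (sH.trans rH.norm)) Q)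
      (oR.coprime_pgroup pT).symm (.inl (pgroup_sol pT)))
    rw [copre_sup, ← quo_comm (rH.le.trans qH.norm) tQ, copre_quo (c.trans (r4.le.trans (rH.le.trans qH.norm))),
      copre_quo_of_le qR (rH.le.trans qH.norm)] at d
    refine r2 (d.ge.trans (sup_le ((sup_le q0 c).trans w0) ((le_inf ?_ ?_).trans n)))
    · exact copre_le_of_le_quo qH (inf_le_left.trans (quo_mono rH.le Q))
    · have := copre_norm (norm_of_cent (inf_le_right : quo R Q ⊓ 𝐂(quo T Q) ≤ _))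
      rwa [copre_quo_of_le qT tQ] at this
  obtain ⟨B, ⟨hB, nB⟩, hm⟩ := (InvImage.wf (fun B => Q ⊔ B) (wellFounded_lt (α := Subgroup X))).has_min
    {B | B ∈ maxIn 2 S ∧ ¬ B ≤ Q} (by
      by_contra e
      exact j1 (thompsonSubgroupOf_le_iff.2 fun B hB => by_contra fun nB => e ⟨B, hB, nB⟩))
  obtain ⟨a, x, hx, nx, d⟩ := exists_dh pQ hB.2.1 q0 r4 (rH.le.trans qH.norm) (hB.1.trans (sH.trans qH.norm))
    (hB.1.trans (sH.trans rH.norm)) (hB.1.trans s0) odd fun e => nB (t5 B hB.1 e)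
  subst hQ
  refine Sv.false ⟨h, d, hB, fun C hC e => by_contra fun nC => hm C ⟨hC, nC⟩ ?_, rH.le hx,
    fun e => nx (e0 ▸ ⟨hx, e⟩)⟩
  refine lt_of_le_not_ge (sup_le le_sup_left (e.trans (sup_le_sup_left inf_le_left _))) fun e' => d.na ?_
  exact (e'.trans (sup_le (le_cm d.xQ) (e.trans (sup_le (le_cm d.xQ) inf_le_right)))) (mem_sup_right d.aB)

theorem Am.norm (h : Am H A S W) : H ≤ 𝐍(W) := by
  induction hn : Nat.card H using Nat.strong_induction_on generalizing H A with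
  | _ n ih =>
    obtain ⟨A', h', pk⟩ := h.pick
    exact h'.step (fun K a b c => ih _ (hn ▸ card_lt_of_lt b) (h'.sub a b.le c) rfl) pk

section
variable (h : OG G A) (hS : Syl 2 S G) (aS : A ≤ 𝐍(S)) (s1 : Group.IsSolvable ↥(G ⊓ 𝐍(𝐉 S)))
include h hS aS s1

/-- `𝛀 S` lies in every member of `maxIn 2 S`, and `G ⊓ 𝐍(𝐉 S)` permutes `maxIn 2 S = maxIn 2 (𝐉 S)`;
`q2_of_red`, `red_ncl`. -/
theorem w_facts : IsElementaryAbelian 2 (ncl (𝛀 S) (G ⊓ 𝐍(𝐉 S))) ∧ ncl (𝛀 S) (G ⊓ 𝐍(𝐉 S)) ≤ S ∧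
    (∀ B ∈ maxIn 2 S, ncl (𝛀 S) (G ⊓ 𝐍(𝐉 S)) ≤ B) ∧ A ≤ 𝐍(ncl (𝛀 S) (G ⊓ 𝐍(𝐉 S))) ∧
    Q2 S (ncl (𝛀 S) (G ⊓ 𝐍(𝐉 S))) := by
  have k : ∀ B ∈ maxIn 2 S, 𝛀 S ≤ B := fun B hB z hz =>
    mem_of_mem_maxIn hB (mem_oz.1 hz).1.1 (cent_anti hB.1 (mem_oz.1 hz).1.2) (mem_oz.1 hz).2
  have k' : ∀ B ∈ maxIn 2 S, ncl (𝛀 S) (G ⊓ 𝐍(𝐉 S)) ≤ B := fun B hB => ncl_le_iff.2 fun g hg =>
    conj_le_iff_le_inv_conj.2 (k _ (conj_mem_maxIn_of_le hB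
      ((conj_le_of_norm (le_thompsonSubgroupOf hB) (inv_mem hg.2)).trans (thompsonSubgroupOf_le S))))
  obtain ⟨B, hB⟩ := exists_mem_maxIn 2 S
  have sN : S ≤ G ⊓ 𝐍(𝐉 S) := le_inf hS.le ((le_norm S).trans (normalizer_le_normalizer_thompsonSubgroupOf S))
  have aN : A ≤ 𝐍(G ⊓ 𝐍(𝐉 S)) :=
    norm_inf h.norm (norm_norm (aS.trans (normalizer_le_normalizer_thompsonSubgroupOf S)))
  have aW := norm_ncl_of_norm (aS.trans (normalizer_le_normalizer_oz (p := 2) S)) aN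
  have el := PGroup.elemAb_of_le hB.2.1 (k' B hB)
  exact ⟨el, (k' B hB).trans hB.1, k', aW, (q2_of_red (h.sub inf_le_left aN) s1 el (ncl_nml ((oz_le S).trans sN)) aW
    (red_ncl (hS.of_le sN inf_le_left) (le_centralizer_oz S))).mono sN⟩

/-- `Am.norm` in the quotient by `O = 𝐎({2}ᶜ, H)` (the quotient map is injective on `S`), then the Frattini
argument in `W ⊔ O`. -/
theorem le_sup_norm (h1 : S ≤ H) (h2 : H ≤ G) (aH : A ≤ 𝐍(H)) (s2 : Group.IsSolvable H) :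
    H ≤ 𝐎({2}ᶜ, H) ⊔ H ⊓ 𝐍(ncl (𝛀 S) (G ⊓ 𝐍(𝐉 S))) := by
  obtain ⟨w1, w2, w3, w4, w5⟩ := w_facts h hS aS s1
  have nW := norm_ncl (𝛀 S) (G ⊓ 𝐍(𝐉 S))
  generalize ncl (𝛀 S) (G ⊓ 𝐍(𝐉 S)) = W at *
  have oH := pcore_nml {2}ᶜ H
  have pO := pcore_pi {2}ᶜ H
  have c0 := pcore_quo_pcore {2}ᶜ H
  have aO := norm_pcore aH {2}ᶜ
  generalize 𝐎({2}ᶜ, H) = O at *
  have sO : S ≤ 𝐍(O) := h1.trans oH.norm
  have sJ : S ≤ 𝐍(𝐉 S) := (le_norm S).trans (normalizer_le_normalizer_thompsonSubgroupOf S)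
  have hf : Function.Injective ((qhom O).comp (inclusion sO)) := (injective_iff_map_eq_one _).2 fun x hx => by
    have a : inclusion sO x ∈ O.subgroupOf 𝐍(O) := qhom_ker O ▸ hx
    exact Subtype.ext (mem_bot.1 (disjoint_of_coprime (pO.coprime_pgroup hS.pgroup) ▸ mem_inf.2 ⟨a, x.2⟩))
  have eS := am_quo_eq sO (le_refl S)
  rw [subgroupOf_self] at eS
  have eJ : 𝐉 (quo S O) = quo (𝐉 S) O := by
    rw [eS, ← map_thompsonSubgroupOf hf, am_quo_eq sO (thompsonSubgroupOf_le S)]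
    congr 1
    refine map_injective S.subtype_injective ?_
    rw [map_thompsonSubgroupOf S.subtype_injective, Core.map_subtype_top, subOf_map (thompsonSubgroupOf_le S)]
  refine am_frat pO oH (pgroup_of_le hS.pgroup w2) (w2.trans h1) le_rfl (Am.norm (A := quo A O) (S := quo S O)
    ⟨(h.sub h2 aH).quo oH aO, sol_quo s2 O, (hS.of_le h1 h2).quo oH.norm, quo_norm aS O, ?_, elab_quo w1 O,
      quo_mono w2 O, quo_norm ((le_inf hS.le sJ).trans nW) O, quo_norm w4 O, fun B hB => ?_, ?_, ?_⟩)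
  · exact Fitting_eq_pcore c0 ▸ cent_sub_Fitting (sol_quo s2 O)
  · rw [eS, maxIn_map hf] at hB
    obtain ⟨B, hB, rfl⟩ := hB
    have := map_mem_maxIn_map S.subtype_injective hB
    rw [Core.map_subtype_top] at this
    rw [am_quo_eq sO w2]
    refine map_mono ((subgroupOf_mono S (w3 _ this)).trans ?_)
    rw [subgroupOf, comap_map_eq_self_of_injective S.subtype_injective]
  · rw [eJ, ← quo_copre (quo H O ⊓ 𝐍(quo (𝐉 S) O))]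
    refine (quo_mono (am_frat pO oH (pgroup_of_le hS.pgroup (thompsonSubgroupOf_le S))
      ((thompsonSubgroupOf_le S).trans h1) (copre_le_of_le_quo oH inf_le_left)
      (by rw [quo_copre]; exact inf_le_right)) O).trans ?_
    rw [quo_sup_self (inf_le_left.trans oH.norm)]
    exact quo_norm ((inf_le_inf_right _ h2).trans nW) O
  · rw [eS, am_quo_eq sO w2, am_q2_map hf, ← am_q2_map S.subtype_injective, Core.map_subtype_top, subOf_map w2]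
    exact w5

/-- `H = G ⊓ 𝐂(𝛀 S)`, `g = m o` with `m ∈ M = H ⊓ 𝐍(W)`, `o ∈ O`. `o ⋆ U ≤ m⁻¹ ⋆ S ≤ M`, so `U` and `o ⋆ U` are Sylow
in `U ⊔ O ⊓ M`; take `o' ∈ O ⊓ M` with `o' o ∈ O ⊓ 𝐍(U) ≤ 𝐂(U)`. -/
theorem cz (s2 : Group.IsSolvable ↥(G ⊓ 𝐂(𝛀 S))) (hg : g ∈ G ⊓ 𝐂(𝛀 S)) (hU : U ≤ S) (e : g ⋆ U ≤ S) :
    ∃ m ∈ G ⊓ 𝐍(ncl (𝛀 S) (G ⊓ 𝐍(𝐉 S))), m⁻¹ * g ∈ 𝐂(U) := by
  have sH : S ≤ G ⊓ 𝐂(𝛀 S) := le_inf hS.le (le_centralizer_oz S)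
  have k := le_sup_norm h hS aS s1 sH inf_le_left
    (norm_inf h.norm (norm_cent (aS.trans (normalizer_le_normalizer_oz S)))) s2 hg
  have sW : S ≤ 𝐍(ncl (𝛀 S) (G ⊓ 𝐍(𝐉 S))) :=
    (le_inf hS.le ((le_norm S).trans (normalizer_le_normalizer_thompsonSubgroupOf S))).trans (norm_ncl _ _)
  have hG : G ⊓ 𝐂(𝛀 S) ≤ G := inf_le_left
  generalize ncl (𝛀 S) (G ⊓ 𝐍(𝐉 S)) = W at *
  generalize G ⊓ 𝐂(𝛀 S) = H at *
  have oH := pcore_nml {2}ᶜ H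
  have pO := pcore_pi {2}ᶜ H
  generalize 𝐎({2}ᶜ, H) = O at *
  have uM : U ≤ H ⊓ 𝐍(W) := hU.trans (le_inf sH sW)
  have uO : U ≤ 𝐍(O) := hU.trans (sH.trans oH.norm)
  have pU := pgroup_of_le hS.pgroup hU
  have n : U ≤ 𝐍(O ⊓ (H ⊓ 𝐍(W))) := norm_inf uO (le_norm_of_le uM)
  rw [sup_comm] at k
  obtain ⟨m, hm, o, ho, rfl⟩ := (mem_sup_right_norm (inf_le_left.trans oH.norm)).1 k
  have a : o ⋆ U ≤ O ⊓ (H ⊓ 𝐍(W)) ⊔ U := by
    rw [← modular_right uM uO]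
    refine le_inf (conj_le_of_mem le_sup_right (mem_sup_left ho)) ?_
    rw [← conj_conj, conj_le_iff_le_inv_conj] at e
    exact e.trans (conj_le_of_mem (le_inf sH sW) (inv_mem hm))
  obtain ⟨y, hy, b⟩ := (am_syl (pO.of_le inf_le_left) pU n).exists_conj_le ((pgroup_conj o).2 pU) a
  rw [sup_comm] at hy
  obtain ⟨u, hu, o', ho', rfl⟩ := (mem_sup_right_norm n).1 hy
  rw [← conj_conj, conj_le_iff_le_inv_conj, conj_eq_of_mem (inv_mem hu), conj_conj] at b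
  have c : o' * o ∈ O ⊓ 𝐍(U) := ⟨mul_mem ho'.1 ho, mem_normalizer_of_conj_le b⟩
  rw [coprime_norm_cent uO (pO.coprime_pgroup pU).symm] at c
  have d := mul_mem hm (inv_mem ho'.2)
  exact ⟨m * o'⁻¹, ⟨hG d.1, d.2⟩, by simpa [mul_assoc] using c.2⟩

end

end Cfsg.Lib.OC
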