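import Cfsg.Agent.Lib.NF.Fix

/-!
# Cyclic operator groups whose generator has a coset of elements of odd order
-/

set_option autoImplicit false
set_option linter.unusedSectionVars false

namespace Cfsg.Lib.OC

open Subgroup Cfsg.Lib.BG Cfsg.Lib.Transfer Cfsg.Lib.FH

variable {X : Type*} [Group X] {A M N S V Y : Subgroup X} {a g w : X} {p k : ℕ}

/-- `A = ⟨a⟩` normalizes `N`, and all elements of the coset `N a` have odd order. -/
structure OG (N A : Subgroup X) : Prop where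
  norm : A ≤ 𝐍(N)
  gen : ∃ a, A = zpowers a ∧ ∀ x ∈ N, Odd (orderOf (x * a))

theorem fix_el (c : w * a = a * w) (o1 : Odd (orderOf a)) (o2 : Odd (orderOf (w * a))) (h : w ^ 2 ^ k = 1) :
    w = 1 := by
  have e : w ^ (orderOf a * orderOf (w * a)) = 1 := by
    have := (show Commute w a from c).mul_pow (orderOf a * orderOf (w * a))
    rwa [mul_comm (orderOf a), pow_mul, pow_orderOf_eq_one, one_pow, mul_comm (orderOf (w * a)), pow_mul a,
      pow_orderOf_eq_one, one_pow, mul_one, eq_comm] at this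
  have := pow_gcd_eq_one.2 ⟨e, h⟩
  rwa [(Nat.Coprime.pow_right k (Nat.coprime_two_right.2 (o1.mul o2))).gcd_eq_one, pow_one] at this

theorem odd_qhom (x : 𝐍(Y)) (h : Odd (orderOf (x : X))) : Odd (orderOf (qhom Y x)) :=
  h.of_dvd_nat ((orderOf_map_dvd _ _).trans (orderOf_coe x).symm.dvd)

theorem fix_mod (hw : w ∈ 𝐍(Y)) (ha : a ∈ 𝐍(Y)) (o1 : Odd (orderOf a)) (o2 : Odd (orderOf (w * a)))
    (h : w ^ 2 ^ k ∈ Y) (e : w⁻¹ * (a * w * a⁻¹) ∈ Y) : w ∈ Y := by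
  refine (QuotientGroup.eq_one_iff (⟨w, hw⟩ : 𝐍(Y))).1 (fix_el (w := qhom Y ⟨w, hw⟩) (a := qhom Y ⟨a, ha⟩) (k := k)
    ?_ (odd_qhom _ o1) (by rw [← map_mul]; exact odd_qhom _ o2) ?_)
  · rw [eq_comm, ← mul_inv_eq_iff_eq_mul, ← map_inv, ← map_mul, ← map_mul]
    exact (NF.fix_qeq.2 e).symm
  · rw [← map_pow]
    exact (QuotientGroup.eq_one_iff ((⟨w, hw⟩ : 𝐍(Y)) ^ 2 ^ k)).2 h

theorem quo_zp (hx : a ∈ 𝐍(Y)) : quo (zpowers a) Y = zpowers (qhom Y ⟨a, hx⟩) := by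
  rw [quo_def, ← MonoidHom.map_zpowers]
  congr 1
  apply map_injective (subtype_injective 𝐍(Y))
  rw [subOf_map (zpowers_le.2 hx), MonoidHom.map_zpowers]
  rfl

namespace OG

variable (h : OG N A)
include h

theorem sub (hM : M ≤ N) (hA : A ≤ 𝐍(M)) : OG M A := by
  obtain ⟨a, e, o⟩ := h.gen
  exact ⟨hA, a, e, fun x hx => o x (hM hx)⟩

theorem quo (hM : Nml M N) (hA : A ≤ 𝐍(M)) : OG (quo N M) (quo A M) := by
  refine ⟨quo_norm h.norm M, ?_⟩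
  obtain ⟨a, rfl, o⟩ := h.gen
  refine ⟨_, quo_zp (hA (mem_zpowers a)), ?_⟩
  rintro _ ⟨x, hx, rfl⟩
  rw [← map_mul]
  exact odd_qhom _ (o x hx)

theorem conj' (g : X) : OG (g ⋆ N) (g ⋆ A) := by
  refine ⟨map_norm _ h.norm, ?_⟩
  obtain ⟨a, rfl, o⟩ := h.gen
  refine ⟨_, conj_zpowers g a, ?_⟩
  rintro _ ⟨x, hx, rfl⟩
  have := o x hx
  rwa [← (MulAut.conj g).orderOf_eq, map_mul] at this

theorem conj (hg : g ∈ 𝐍(N)) : OG N (g ⋆ A) := by
  have := h.conj' g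
  rwa [conj_eq_of_norm hg] at this

theorem fpf (hN : IsPGroup 2 N) : N ⊓ 𝐂(A) = ⊥ := by
  obtain ⟨a, rfl, o⟩ := h.gen
  refine eq_bot_iff.2 fun w hw => ?_
  obtain ⟨k, hk⟩ := hN ⟨w, hw.1⟩
  exact fix_el (mem_cent.1 hw.2 a (mem_zpowers a)).symm (by simpa using o 1 (one_mem N)) (o w hw.1)
    (congrArg Subtype.val hk)

/-- The generator may be moved inside its coset until it normalizes a given Sylow subgroup. -/
theorem frat [Finite X] [Fact p.Prime] (hM : M ≤ N) (aM : A ≤ 𝐍(M)) (hS : Syl p S M) :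
    ∃ A', OG N A' ∧ A' ≤ 𝐍(S) ∧ A' ≤ M ⊔ A ∧ A ≤ M ⊔ A' := by
  obtain ⟨a, rfl, o⟩ := h.gen
  obtain ⟨n, hn, e⟩ := Transfer.frattini_argument hS.le hS.pgroup hS.not_dvd' aM (mem_zpowers a)
  refine ⟨zpowers (n * a), ⟨zpowers_le.2 (mul_mem (le_norm N (hM hn)) (h.norm (mem_zpowers a))), _, rfl,
    fun x hx => mul_assoc x n a ▸ o _ (mul_mem hx (hM hn))⟩, zpowers_le.2 e,
    zpowers_le.2 (mul_mem_sup hn (mem_zpowers a)), zpowers_le.2 ?_⟩
  simpa using mul_mem_sup (inv_mem hn) (mem_zpowers (n * a))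

end OG

end Cfsg.Lib.OC
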